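import Mathlib

/-!
# A quantitative Kronecker theorem by a Fejér type kernel (helper27)
-/

set_option autoImplicit false

namespace Cfsg.Lib.BP21

open Finset Complex
open scoped Real ComplexConjugate

/-- `exp (2 π i t)` -/
noncomputable def E (t : ℝ) : ℂ := cexp (2 * π * I * t)

theorem E_add (s t : ℝ) : E (s + t) = E s * E t := by
  rw [E, E, E, ← Complex.exp_add]; congr 1; push_cast; ring

theorem E_zero : E 0 = 1 := by simp [E]

theorem E_int (n : ℤ) : E n = 1 := by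
  rw [E, Complex.exp_eq_one_iff]; exact ⟨n, by push_cast; ring⟩

theorem E_pow (t : ℝ) (n : ℕ) : E t ^ n = E (n * t) := by
  rw [E, E, ← Complex.exp_nat_mul]; congr 1; push_cast; ring

theorem E_sum {ι : Type*} (s : Finset ι) (f : ι → ℝ) : ∏ i ∈ s, E (f i) = E (∑ i ∈ s, f i) := by
  simp only [E]; rw [← Complex.exp_sum]; congr 1; push_cast; rw [mul_sum]

theorem conj_E (t : ℝ) : conj (E t) = E (-t) := by
  rw [E, E, ← Complex.exp_conj]; congr 1; simp [map_ofNat]

theorem sum_E {d : ℕ} (hd : 0 < d) (b : ℤ) :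
    ∑ q ∈ range d, E (q * (b / d)) = if (d : ℤ) ∣ b then (d : ℂ) else 0 := by
  have d0 : (d : ℝ) ≠ 0 := by positivity
  simp only [← E_pow]
  split_ifs with h
  · obtain ⟨c, rfl⟩ := h
    rw [show ((d * c : ℤ) : ℝ) / d = c by push_cast; field_simp, E_int]; simp
  · have h1 : E (b / d) ≠ 1 := fun e => by
      obtain ⟨n, hn⟩ := Complex.exp_eq_one_iff.1 e
      have h2 : (((b : ℝ) / d : ℝ) : ℂ) = n :=
        mul_left_cancel₀ Complex.two_pi_I_ne_zero (hn.trans (mul_comm _ _))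
      have h3 : (b : ℝ) / d = n := by exact_mod_cast h2
      rw [div_eq_iff d0] at h3
      exact h ⟨n, by exact_mod_cast h3.trans (mul_comm _ _)⟩
    rw [geom_sum_eq h1, E_pow, mul_div_cancel₀ _ d0, E_int, sub_self, zero_div]

theorem key {τ : Type*} (T : Finset τ) (c : τ → ℕ) (β : τ → ℤ) (γ : τ → ℝ) {d : ℕ} (hd : 0 < d)
    (h : ∀ s ∈ T, ∀ t ∈ T, (d : ℤ) ∣ β s - β t → γ s = γ t) {t₀ : τ} (h0 : t₀ ∈ T) :
    (d : ℝ) * c t₀ ^ 2 ≤ ∑ q ∈ range d, ‖∑ t ∈ T, (c t : ℂ) * E (q * (β t / d) - γ t)‖ ^ 2 := by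
  classical
  have h1 : ((∑ q ∈ range d, ‖∑ t ∈ T, (c t : ℂ) * E (q * (β t / d) - γ t)‖ ^ 2 : ℝ) : ℂ) =
      ((∑ s ∈ T, ∑ t ∈ T, if (d : ℤ) ∣ β s - β t then c s * c t * d else 0 : ℕ) : ℂ) := by
    push_cast
    simp only [← Complex.mul_conj', map_sum, map_mul, conj_E, sum_mul_sum, map_natCast]
    rw [sum_comm]
    refine sum_congr rfl fun s hs => ?_
    rw [sum_comm]
    refine sum_congr rfl fun t ht => ?_
    have h2 : ∀ q : ℕ, (c s : ℂ) * E (q * (β s / d) - γ s) * (c t * E (-(q * (β t / d) - γ t))) =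
        c s * c t * E (γ t - γ s) * E (q * ((β s - β t : ℤ) / d)) := fun q => by
      rw [mul_mul_mul_comm, ← E_add, mul_assoc (c s * c t : ℂ), ← E_add]; congr 2; push_cast; ring
    simp only [h2]
    rw [← mul_sum, sum_E hd]
    split_ifs with e
    · rw [h s hs t ht e, sub_self, E_zero, mul_one]
    · simp
  have h2 : d * c t₀ ^ 2 ≤ ∑ s ∈ T, ∑ t ∈ T, if (d : ℤ) ∣ β s - β t then c s * c t * d else 0 :=
    le_trans (le_trans (by simp [sq, mul_comm]) (single_le_sum (f := fun t => if (d : ℤ) ∣ β t₀ - β t then c t₀ * c t * d else 0)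
      (fun _ _ => Nat.zero_le _) h0)) (single_le_sum (f := fun s => ∑ t ∈ T, if (d : ℤ) ∣ β s - β t then c s * c t * d else 0)
      (fun _ _ => Nat.zero_le _) h0)
  rw [← Complex.ofReal_natCast, Complex.ofReal_inj] at h1
  rw [h1]; exact_mod_cast h2

theorem norm_E (y : ℝ) : ‖E y + 1‖ ^ 2 = 2 + 2 * Real.cos (2 * π * y) := by
  have : E y = cexp ((2 * π * y : ℝ) * I) := by rw [E]; congr 1; push_cast; ring
  rw [this, ← Complex.normSq_eq_norm_sq, Complex.normSq_apply]
  simp only [add_re, add_im, exp_ofReal_mul_I_re, exp_ofReal_mul_I_im, one_re, one_im]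
  linear_combination Real.sin_sq_add_cos_sq (2 * π * y)

theorem norm_E_le {y ε : ℝ} (h0 : 0 ≤ ε) (h : ε ≤ |y - round y|) : ‖E y + 1‖ ^ 2 ≤ 2 + 2 * Real.cos (2 * π * ε) := by
  have h1 : Real.cos (2 * π * y) = Real.cos (2 * π * |y - round y|) := by
    rw [← Real.cos_sub_int_mul_two_pi _ (round y), ← Real.cos_abs, ← abs_of_pos Real.two_pi_pos, ← abs_mul,
      abs_of_pos Real.two_pi_pos]
    congr 2; ring
  have h2 := abs_sub_round y
  have h3 := Real.pi_pos
  rw [norm_E, h1]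
  have := Real.cos_le_cos_of_nonneg_of_le_pi (x := 2 * π * ε) (y := 2 * π * |y - round y|) (by positivity) (by nlinarith)
    (by nlinarith)
  linarith

theorem exists_n (k : ℕ) {r : ℝ} (h0 : 0 ≤ r) (h : r < 1) : ∃ n : ℕ, (2 * n + 1 : ℝ) ^ k * r ^ (2 * n) < 1 := by
  have h1 := (tendsto_pow_const_mul_const_pow_of_abs_lt_one k (r := r ^ 2)
    (by rw [abs_of_nonneg (by positivity)]; nlinarith)).const_mul (3 ^ k)
  rw [mul_zero] at h1
  obtain ⟨n, h2, h3⟩ := ((h1.eventually_lt_const one_pos).and (Filter.eventually_ge_atTop 1)).exists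
  refine ⟨n, lt_of_le_of_lt ?_ h2⟩
  have : (1 : ℝ) ≤ n := by exact_mod_cast h3
  rw [← mul_assoc, ← mul_pow, pow_mul]
  gcongr; linarith

/-- If all small integral relations of `a / d` modulo `ℤ` vanish at `x` then `x` is close to a multiple of `a / d`. -/
theorem approx (ι : Type*) [Fintype ι] {ε : ℝ} (h0 : 0 < ε) (h1 : ε ≤ 1 / 2) : ∃ m : ℕ, ∀ (d : ℕ) (a : ι → ℤ) (x : ι → ℝ), 0 < d →
    (∀ c : ι → ℤ, (∀ i, |c i| ≤ m) → (d : ℤ) ∣ ∑ i, c i * a i → ∑ i, c i * x i = 0) →
    ∃ (q : ℤ) (w : ι → ℤ), ∀ i, |q * (a i / d : ℝ) - w i - x i| ≤ ε := by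
  classical
  have hp := Real.pi_pos
  obtain ⟨r, hr⟩ : ∃ r, r = (2 + 2 * Real.cos (2 * π * ε)) / 4 := ⟨_, rfl⟩
  have r0 : 0 ≤ r := by have := Real.neg_one_le_cos (2 * π * ε); linarith
  have r1 : r < 1 := by
    have := Real.cos_lt_cos_of_nonneg_of_le_pi (x := 0) (y := 2 * π * ε) le_rfl (by nlinarith) (by positivity)
    rw [Real.cos_zero] at this; linarith
  obtain ⟨n, hn⟩ := exists_n (2 * Fintype.card ι) r0 r1
  refine ⟨2 * n, fun d a x hd h => by_contra fun h2 => ?_⟩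
  push Not at h2
  have h3 := key (Fintype.piFinset fun _ : ι => range (2 * n + 1)) (fun b => ∏ i, (2 * n).choose (b i))
    (fun b => ∑ i, b i * a i) (fun b => ∑ i, b i * x i) hd (t₀ := fun _ => n) (fun s hs t ht e => by
      simp only [Fintype.mem_piFinset, mem_range] at hs ht
      have := h (fun i => s i - t i) (fun i => by have := hs i; have := ht i; rw [abs_le]; constructor <;> omega)
        (by simpa only [sub_mul, sum_sub_distrib] using e)
      push_cast at this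
      simpa only [sub_mul, sum_sub_distrib, sub_eq_zero] using this) (by simp; omega)
  have h4 : ∀ q ∈ range d, ‖∑ b ∈ Fintype.piFinset fun _ : ι => range (2 * n + 1), ((∏ i, (2 * n).choose (b i) : ℕ) : ℂ) *
      E (q * ((∑ i, b i * a i : ℤ) / d) - ∑ i, b i * x i)‖ ^ 2 ≤ (4 ^ (2 * n)) ^ Fintype.card ι * r ^ (2 * n) := fun q _ => by
    have h5 : ∑ b ∈ Fintype.piFinset fun _ : ι => range (2 * n + 1), ((∏ i, (2 * n).choose (b i) : ℕ) : ℂ) *
        E (q * ((∑ i, b i * a i : ℤ) / d) - ∑ i, b i * x i) = ∏ i, (E (q * (a i / d) - x i) + 1) ^ (2 * n) := by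
      simp only [add_pow, one_pow, mul_one, E_pow]
      rw [prod_univ_sum]
      refine sum_congr rfl fun b _ => ?_
      rw [prod_mul_distrib, E_sum, mul_comm]
      push_cast
      congr 2
      rw [sum_div, mul_sum, ← sum_sub_distrib]
      exact sum_congr rfl fun i _ => by ring
    obtain ⟨i, hi⟩ := h2 q fun i => round (q * (a i / d : ℝ) - x i)
    have h6 := norm_E_le (y := q * (a i / d : ℝ) - x i) h0.le (hi.le.trans_eq (by congr 1; push_cast; ring))
    rw [h5, norm_prod, ← prod_pow]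
    simp only [norm_pow, pow_right_comm _ (2 * n) 2]
    calc _ ≤ ∏ j, (4 : ℝ) ^ (2 * n) * (if j = i then r ^ (2 * n) else 1) := by
          refine prod_le_prod (fun _ _ => by positivity) fun j _ => ?_
          split_ifs with e
          · rw [e, ← mul_pow]; gcongr; linarith
          · rw [mul_one]; gcongr; rw [norm_E]; have := Real.cos_le_one (2 * π * (q * (a j / d) - x j)); linarith
      _ = _ := by rw [prod_mul_distrib]; simp [pow_mul]
  have h5 := h3.trans (sum_le_sum h4)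
  rw [sum_const, card_range, nsmul_eq_mul] at h5
  have h6 := le_of_mul_le_mul_left h5 (by positivity)
  have h7 : (4 : ℝ) ^ n ≤ (2 * n + 1) * (2 * n).choose n := by
    exact_mod_cast Nat.four_pow_le_two_mul_add_one_mul_central_binom n
  have h8 := pow_le_pow_left₀ (by positivity) h7 (2 * Fintype.card ι)
  simp only [prod_const, card_univ, Nat.cast_pow] at h6
  rw [mul_pow] at h8
  have h9 : ((4 : ℝ) ^ n) ^ (2 * Fintype.card ι) = (4 ^ (2 * n)) ^ Fintype.card ι := by ring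
  rw [← pow_mul, mul_comm _ 2] at h6
  have h10 : (0 : ℝ) < (4 ^ (2 * n)) ^ Fintype.card ι := by positivity
  have h11 := mul_le_mul_of_nonneg_left h6 (show (0 : ℝ) ≤ (2 * n + 1) ^ (2 * Fintype.card ι) by positivity)
  nlinarith

end Cfsg.Lib.BP21
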