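import Cfsg.Agent.Lib.BP21.Fej

/-!
# Rational vectors whose distinguished coordinate is quadratically small have bounded denominator there (helper27)
-/

set_option autoImplicit false

namespace Cfsg.Lib.BP21

open Finset Filter

/-- every element `η` of `ℤ (a / d) + ℤ ^ ι` has `|η i₀| ≤ |η|²` -/
def Cond {ι : Type*} [Fintype ι] (i₀ : ι) (d : ℕ) (a : ι → ℤ) : Prop :=
  ∀ (q : ℤ) (w : ι → ℤ), |q * (a i₀ / d : ℝ) - w i₀| ≤ ∑ i, (q * (a i / d : ℝ) - w i) ^ 2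

theorem exists_dual {ι : Type*} [Fintype ι] [DecidableEq ι] (i₀ : ι) (A : AddSubgroup (ι → ℤ))
    (h : ∀ N : ℕ, 0 < N → Pi.single i₀ (N : ℤ) ∉ A) : ∃ x : ι → ℝ, x i₀ = 1 ∧ ∀ c ∈ A, ∑ i, c i * x i = 0 := by
  let P : Submodule ℚ (ι → ℚ) :=
    { carrier := {y | ∃ N : ℕ, 0 < N ∧ ∃ c ∈ A, ∀ i, N * y i = c i}
      zero_mem' := ⟨1, one_pos, 0, zero_mem _, by simp⟩
      add_mem' := fun ⟨N, hN, c, hc, e⟩ ⟨M, hM, c', hc', e'⟩ => ⟨N * M, by positivity, M • c + N • c',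
        add_mem (nsmul_mem hc _) (nsmul_mem hc' _), fun i => by simp [← e, ← e']; ring⟩
      smul_mem' := fun r y ⟨N, hN, c, hc, e⟩ => ⟨N * r.den, by have := r.den_pos; positivity, r.num • c,
        zsmul_mem hc _, fun i => by simp [← e, ← Rat.mul_den_eq_num]; ring⟩ }
  obtain ⟨f, h1, h2⟩ := P.exists_dual_map_eq_bot_of_notMem (x := Pi.single i₀ 1) (fun ⟨N, hN, c, hc, e⟩ =>
    h N hN (by
      convert hc; ext i; have := e i
      by_cases k : i = i₀
      · subst k; simp at this ⊢; exact_mod_cast this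
      · simp [k] at this ⊢; exact_mod_cast this)) inferInstance
  refine ⟨fun i => (f (Pi.single i 1) / f (Pi.single i₀ 1) : ℚ), by simp [h1], fun c hc => ?_⟩
  have h3 : f (fun i => c i) = 0 := (Submodule.mem_bot ℚ).1 (h2 ▸ Submodule.mem_map_of_mem ⟨1, one_pos, c, hc, by simp⟩)
  rw [LinearMap.pi_apply_eq_sum_univ] at h3
  have h4 : ∑ i, c i * (f (Pi.single i 1) / f (Pi.single i₀ 1)) = 0 := by
    simp only [← mul_div_assoc]; rw [← sum_div, div_eq_zero_iff]; left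
    rw [← h3]; refine sum_congr rfl fun i _ => ?_
    rw [smul_eq_mul]; congr 2; ext j; simp [Pi.single_apply, eq_comm]
  simpa using congrArg (Rat.cast : ℚ → ℝ) h4

theorem lat {ι : Type*} [Fintype ι] (i₀ : ι) : ∃ B : ℕ, ∀ (d : ℕ) (a : ι → ℤ), 0 < d → Cond i₀ d a →
    ∃ N : ℕ, 0 < N ∧ N ≤ B ∧ (d : ℤ) ∣ N * a i₀ := by
  classical
  by_contra h
  push Not at h
  choose d a hd hc h using h
  let A : AddSubgroup (ι → ℤ) :=
    { carrier := {c | ∀ᶠ n in hyperfilter ℕ, (d n : ℤ) ∣ ∑ i, c i * a n i}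
      zero_mem' := by simp
      add_mem' := fun h1 h2 => (h1.and h2).mono fun n e => by simpa [add_mul, sum_add_distrib] using e.1.add e.2
      neg_mem' := fun h1 => h1.mono fun n e => by simpa using e }
  obtain ⟨x, h1, h2⟩ := exists_dual i₀ A fun N hN e => by
    obtain ⟨n, h3, h4⟩ := (Filter.Eventually.and e (Nat.hyperfilter_le_atTop (eventually_ge_atTop N))).exists
    exact h n N hN h4 (by simpa [Pi.single_apply] using h3)
  obtain ⟨C, hC⟩ : ∃ C, C = ∑ i, (|x i| + 1) ^ 2 := ⟨_, rfl⟩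
  have C1 : 1 ≤ C := hC ▸ le_trans (by rw [h1]; norm_num) (single_le_sum (f := fun i => (|x i| + 1) ^ 2)
    (fun _ _ => by positivity) (mem_univ i₀))
  obtain ⟨t, ht⟩ : ∃ t, t = 1 / (4 * C) := ⟨_, rfl⟩
  have t0 : 0 < t := by rw [ht]; positivity
  have t1 : t * C = 1 / 4 := by rw [ht]; field_simp
  obtain ⟨m, hm⟩ := approx ι (ε := t / 2) (by positivity) (by nlinarith)
  have h3 : ∀ᶠ n in hyperfilter ℕ, ∀ c ∈ Fintype.piFinset fun _ : ι => Icc (-m : ℤ) m, (d n : ℤ) ∣ ∑ i, c i * a n i → c ∈ A :=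
    (eventually_all_finset _).2 fun c _ => by
      by_cases k : c ∈ A
      · exact .of_forall fun _ _ => k
      · exact (Ultrafilter.eventually_not.2 k).mono fun n e e' => (e e').elim
  obtain ⟨n, hn⟩ := h3.exists
  obtain ⟨q, w, h4⟩ := hm (d n) (a n) (fun i => t * x i) (hd n) fun c h4 h5 => by
    simp only [mul_left_comm _ t]
    rw [← mul_sum, h2 c (hn c (Fintype.mem_piFinset.2 fun i => mem_Icc.2 (abs_le.1 (h4 i))) h5), mul_zero]
  have h5 := hc n q w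
  have h6 : ∑ i, (q * (a n i / d n : ℝ) - w i) ^ 2 ≤ ∑ i, t ^ 2 * (|x i| + 1) ^ 2 := sum_le_sum fun i _ => by
    rw [← mul_pow, ← sq_abs]
    have := abs_add_le (q * (a n i / d n : ℝ) - w i - t * x i) (t * x i)
    rw [sub_add_cancel, abs_mul, abs_of_pos t0] at this
    have := h4 i
    gcongr; linarith
  rw [← mul_sum, ← hC] at h6
  have h7 := abs_le.1 (h4 i₀)
  have h8 := le_abs_self (q * (a n i₀ / d n : ℝ) - w i₀)
  rw [h1] at h7
  nlinarith

theorem lat' (k : ℕ) : ∃ B : ℕ, ∀ (ι : Type*) [Fintype ι] (i₀ : ι) (d : ℕ) (a : ι → ℤ), Fintype.card ι ≤ k → 0 < d →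
    Cond i₀ d a → ∃ N : ℕ, 0 < N ∧ N ≤ B ∧ (d : ℤ) ∣ N * a i₀ := by
  choose B hB using fun (m : ℕ) (i : Fin m) => lat i
  refine ⟨∑ m ∈ range (k + 1), ∑ i, B m i, fun ι _ i₀ d a hk hd h => ?_⟩
  let e := Fintype.equivFin ι
  obtain ⟨N, h1, h2, h3⟩ := hB _ (e i₀) d (fun j => a (e.symm j)) hd fun q w => by
    have := h q fun i => w (e i)
    rw [← e.symm.sum_comp] at this
    simpa using this
  refine ⟨N, h1, h2.trans ?_, by simpa using h3⟩
  exact (single_le_sum (f := B _) (fun _ _ => Nat.zero_le _) (mem_univ _)).trans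
    (single_le_sum (f := fun m => ∑ i, B m i) (fun _ _ => Nat.zero_le _) (mem_range.2 (by omega)))

end Cfsg.Lib.BP21
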