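import Cfsg.Agent.Lib.BP21.Lat
import Cfsg.Agent.Lib.Char.Galois

/-!
# The denominator of `|X| / |G|` for a rational normal subset `X` (helper27)
-/

set_option autoImplicit false

namespace Cfsg.Lib.BP21

open Finset Cfsg.Lib.Char
open scoped ComplexConjugate

variable {G : Type*} [Group G] [Fintype G] {θ : G → ℂ}

/-- the trace inequality -/
theorem sum_norm_le (h : IsGeneralizedCharacter G θ) (S : Finset G)
    (hS : ∀ k : ℕ, k.Coprime (Nat.card G) → ∀ g ∈ S, g ^ k ∈ S) : ∑ g ∈ S, ‖θ g‖ ≤ ∑ g ∈ S, ‖θ g‖ ^ 2 := by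
  classical
  have h1 := h.card_le_sum_norm_sq (S.filter fun g => θ g ≠ 0) (fun k hk g hg => by
    obtain ⟨σ, hσ⟩ := exists_ringEquiv_forall_map_apply G hk
    rw [mem_filter] at hg ⊢
    exact ⟨hS k hk g hg.1, by rw [← hσ θ h]; simpa using hg.2⟩) fun g hg => (mem_filter.1 hg).2
  rw [← sum_filter_of_ne (p := fun g => θ g ≠ 0) (f := fun g => ‖θ g‖) fun g _ e => by simpa using e,
    ← sum_filter_of_ne (p := fun g => θ g ≠ 0) (f := fun g => ‖θ g‖ ^ 2) fun g _ e => by simpa using e]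
  have h2 := sum_le_sum (s := S.filter fun g => θ g ≠ 0) (f := fun g => 2 * ‖θ g‖) (g := fun g => 1 + ‖θ g‖ ^ 2)
    fun g _ => by nlinarith [sq_nonneg (‖θ g‖ - 1)]
  rw [← mul_sum, sum_add_distrib, sum_const, nsmul_eq_mul, mul_one] at h2
  linarith

/-- `X` is closed under conjugation and coprime powers, `B` contains the characters with non-zero sum over `X`. -/
theorem exists_cond (X : Finset G) (hX : ∀ g h, h * g * h⁻¹ ∈ X ↔ g ∈ X)
    (hS : ∀ k : ℕ, k.Coprime (Nat.card G) → ∀ g, g ^ k ∈ X ↔ g ∈ X) (B : Finset (IrrCharacter G)) (h1 : irrOne G ∈ B)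
    (hB : ∀ χ ∉ B, ∑ g ∈ X, χ.1 g = 0) :
    ∃ a : B → ℤ, a ⟨_, h1⟩ = X.card ∧ (∀ χ : B, ∑ g ∈ X, χ.1.1 g = a χ) ∧ Cond (⟨_, h1⟩ : B) (Nat.card G) a := by
  classical
  choose a ha using fun χ : IrrCharacter G => χ.2.isGeneralizedCharacter.exists_int_sum X fun k hk g => (hS k hk g).2
  refine ⟨fun χ => a χ, by have := ha (irrOne G); simp at this; exact_mod_cast this.symm, fun χ => ha χ, fun q w => ?_⟩
  let W : IrrCharacter G → ℤ := fun χ => if h : χ ∈ B then w ⟨χ, h⟩ else 0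
  obtain ⟨l, hl⟩ : ∃ l, l = ∑ ψ : IrrCharacter G, (W ψ : ℂ) • (ψ : G → ℂ) := ⟨_, rfl⟩
  have gl : IsGeneralizedCharacter G l := hl ▸ isGeneralizedCharacter_sum_int_smul_irr W
  let f : G → ℂ := fun g => if g ∈ X then 1 else 0
  have cf : IsClassFunction G ((q : ℂ) • f - l) := fun g h => by simp [f, hX, gl.isClassFunction g h]
  have n0 : (0 : ℝ) < Nat.card G := by exact_mod_cast Nat.card_pos
  have i1 : ∀ χ : IrrCharacter G, classInner ((q : ℂ) • f - l) χ = ((q * (a χ / Nat.card G : ℝ) - W χ : ℝ) : ℂ) := fun χ => by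
    rw [classInner_sub_left, classInner_smul_left, hl, classInner_sum_smul_irr, classInner_def]
    simp only [f, ite_mul, one_mul, zero_mul, sum_ite_mem, univ_inter]
    rw [← map_sum, ha]; simp [div_eq_inv_mul]
  have i2 := congrArg Complex.re (cf.inner_eq_sum_irr ((q : ℂ) • f - l))
  simp only [classInner_self_re, i1, Complex.conj_ofReal, ← Complex.ofReal_mul, ← Complex.ofReal_sum, Complex.ofReal_re] at i2
  have i3 := i1 (irrOne G)
  rw [coe_irrOne, classInner_one_right] at i3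
  have i4 := congrArg norm i3
  rw [Complex.norm_real, Real.norm_eq_abs, norm_mul, norm_inv, Complex.norm_natCast] at i4
  have i5 : ∑ g, ‖((q : ℂ) • f - l) g‖ ≤ ∑ g, ‖((q : ℂ) • f - l) g‖ ^ 2 := by
    rw [← sum_add_sum_compl X, ← sum_add_sum_compl X]
    have e1 := sum_norm_le ((isGeneralizedCharacter_one.intCast_smul q).sub gl) X fun k hk g => (hS k hk g).2
    have e2 := sum_norm_le gl Xᶜ fun k hk g => by simp [hS k hk g]
    have e3 : ∀ g ∈ X, ‖((q : ℂ) • f - l) g‖ = ‖(((q : ℂ) • fun _ : G => (1 : ℂ)) - l) g‖ := fun g hg => by simp [f, hg]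
    have e4 : ∀ g ∈ Xᶜ, ‖((q : ℂ) • f - l) g‖ = ‖l g‖ := fun g hg => by simp [f, mem_compl.1 hg]
    rw [sum_congr rfl e3, sum_congr rfl e4, sum_congr rfl fun g hg => congrArg (· ^ 2) (e3 g hg),
      sum_congr rfl fun g hg => congrArg (· ^ 2) (e4 g hg)]
    exact add_le_add e1 e2
  have i6 : ∑ χ : IrrCharacter G, (q * (a χ / Nat.card G : ℝ) - W χ) * (q * (a χ / Nat.card G : ℝ) - W χ) =
      ∑ χ : B, (q * (a χ / Nat.card G : ℝ) - w χ) ^ 2 := by
    rw [← sum_subset (subset_univ B) fun χ _ h => ?_, ← sum_coe_sort]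
    · exact sum_congr rfl fun χ _ => by simp [W, sq]
    · have : a χ = 0 := by exact_mod_cast (ha χ).symm.trans (hB χ h)
      simp [W, h, this]
  rw [← i6, ← i2]
  have i7 : W (irrOne G) = w ⟨_, h1⟩ := dif_pos h1
  rw [← i7, ← i4]
  exact mul_le_mul_of_nonneg_left ((norm_sum_le _ _).trans i5) (by positivity)

/-- The denominator of `|X| / |G|` is bounded in terms of the number of irreducible characters with non-zero sum over `X`. -/
theorem den_le (k : ℕ) : ∃ b : ℕ, ∀ (G : Type*) [Group G] [Fintype G] (X : Finset G), (∀ g h : G, h * g * h⁻¹ ∈ X ↔ g ∈ X) →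
    (∀ k : ℕ, k.Coprime (Nat.card G) → ∀ g, g ^ k ∈ X ↔ g ∈ X) → ∀ B : Finset (IrrCharacter G), irrOne G ∈ B →
    (∀ χ ∉ B, ∑ g ∈ X, χ.1 g = 0) → B.card ≤ k → ∃ N : ℕ, 0 < N ∧ N ≤ b ∧ Nat.card G ∣ N * X.card := by
  obtain ⟨b, hb⟩ := lat' k
  refine ⟨b, fun G _ _ X hX hS B h1 hB hk => ?_⟩
  obtain ⟨a, h2, -, h3⟩ := exists_cond X hX hS B h1 hB
  obtain ⟨N, h4, h5, h6⟩ := hb B _ _ a (by simpa using hk) Nat.card_pos h3
  exact ⟨N, h4, h5, by rw [h2] at h6; exact_mod_cast h6⟩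

end Cfsg.Lib.BP21
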